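import Cfsg.Agent.H226.R2.Base
import Cfsg.Agent.H776.CY.Congr
import Cfsg.Agent.H813.K547.FiTF

/-!
# S4829, `p = 2`: the row `Fi24'` (helper125)

The character of degree 57477 of the rank three action of degree 306936 is rational and invariant under all
automorphisms (`H813.K547.FiTF.exists_chi`).
-/

set_option autoImplicit false

namespace Cfsg.Agent.H125.R2.FiTF

open Cfsg Cfsg.Agent.H226.R2 Cfsg.Agent.H770.CY Cfsg.Agent.Characters.Core

/-- a nontrivial integer valued irreducible character of odd degree fixed by all automorphisms gives `Row2` -/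
theorem row2_of_inv {S : Type*} [Group S] [Finite S] {χ : S → ℂ} (h1 : IsIrrCharacter S χ) {d : ℕ} (hd : Odd d)
    (hd1 : d ≠ 1) (h2 : charDegree χ = d) (h3 : ∀ g, ∃ q : ℚ, χ g = q)
    (h4 : ∀ (τ : MulAut S) (x : S), χ (τ x) = χ x) : Row2 S := by
  have hdeg : χ 1 = d := by
    obtain ⟨e, -, he⟩ := isIrr_apply_one h1
    have h5 : charDegree χ = e := Cfsg.Agent.H687.charDegree_of_eq he
    rw [he, ← h5, h2]
  refine row2_of_odd_index (Γ := ⊤) (by rw [Subgroup.index_top]; decide)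
    ⟨χ, h1, ?_, ⟨d, hd, hdeg⟩, h3, fun τ _ x => h4 τ x⟩
  intro h6
  rw [h6, Pi.one_apply] at hdeg
  exact hd1 (by exact_mod_cast hdeg.symm)

theorem row2_fi24' : Row2 Spor.Fi24' := by
  have := H813.K547.FiTF.finite_F
  obtain ⟨χ, hg, hd, hz, hinv⟩ := H813.K547.FiTF.exists_chi
  refine row2_of_inv hg.odd.1 (d := 57477) (by decide) (by norm_num) hd (fun g => ?_) hinv
  obtain ⟨z, hz⟩ := hz g
  exact ⟨z, by rw [hz]; push_cast; rfl⟩

theorem rowFor2_fi24' : RowFor2 (fun X _ => Spor.IsoFi24' X) := by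
  intro X _ _ _ _ hX
  obtain ⟨e⟩ := hX
  exact H776.CY.Row2.congr e row2_fi24'

end Cfsg.Agent.H125.R2.FiTF
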